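import Mathlib

set_option autoImplicit false

namespace Cfsg.Agent.H411.JordanSets

open MulAction
open scoped Pointwise

/-- `J` is a (possibly improper) Jordan set of the action: the elements fixing everything outside `J`
are transitive on `J`. -/
def IsJ (G : Type*) {Ω : Type*} [Group G] [MulAction G Ω] (J : Set Ω) : Prop :=
  ∀ x ∈ J, ∀ y ∈ J, ∃ g : G, (∀ z, z ∉ J → g • z = z) ∧ g • x = y

section basic

variable {G Ω : Type*} [Group G] [MulAction G Ω]

theorem isJ_of_isPretransitive {Γ : Set Ω}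
    (hJ : IsPretransitive ↥(fixingSubgroup G Γᶜ) ↥(SubMulAction.ofFixingSubgroup G Γᶜ)) :
    IsJ G Γ := by
  intro x hx y hy
  have hx' : x ∈ SubMulAction.ofFixingSubgroup G Γᶜ := by
    rw [SubMulAction.mem_ofFixingSubgroup_iff]; simpa using hx
  have hy' : y ∈ SubMulAction.ofFixingSubgroup G Γᶜ := by
    rw [SubMulAction.mem_ofFixingSubgroup_iff]; simpa using hy
  obtain ⟨⟨g, hg⟩, hgx⟩ := hJ.exists_smul_eq ⟨x, hx'⟩ ⟨y, hy'⟩
  refine ⟨g, fun z hz => ?_, ?_⟩
  · rw [mem_fixingSubgroup_iff] at hg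
    exact hg z hz
  · have := congrArg Subtype.val hgx
    simpa using this

theorem isPretransitive_of_isJ {Γ : Set Ω} (h : IsJ G Γ) :
    IsPretransitive ↥(fixingSubgroup G Γᶜ) ↥(SubMulAction.ofFixingSubgroup G Γᶜ) := by
  refine ⟨fun ⟨x, hx⟩ ⟨y, hy⟩ => ?_⟩
  rw [SubMulAction.mem_ofFixingSubgroup_iff] at hx hy
  obtain ⟨g, hg, hgx⟩ := h x (by simpa using hx) y (by simpa using hy)
  refine ⟨⟨g, ?_⟩, ?_⟩
  · rw [mem_fixingSubgroup_iff]
    intro z hz
    exact hg z hz
  · apply Subtype.ext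
    simpa using hgx

theorem IsJ.union {J₁ J₂ : Set Ω} (h₁ : IsJ G J₁) (h₂ : IsJ G J₂) (h : (J₁ ∩ J₂).Nonempty) :
    IsJ G (J₁ ∪ J₂) := by
  obtain ⟨c, hc1, hc2⟩ := h
  have key : ∀ x ∈ J₁ ∪ J₂, ∃ g : G, (∀ z, z ∉ J₁ ∪ J₂ → g • z = z) ∧ g • x = c := by
    rintro x (hx | hx)
    · obtain ⟨g, hg, hgx⟩ := h₁ x hx c hc1
      exact ⟨g, fun z hz => hg z fun h => hz (Or.inl h), hgx⟩
    · obtain ⟨g, hg, hgx⟩ := h₂ x hx c hc2
      exact ⟨g, fun z hz => hg z fun h => hz (Or.inr h), hgx⟩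
  intro x hx y hy
  obtain ⟨g, hg, hgx⟩ := key x hx
  obtain ⟨k, hk, hky⟩ := key y hy
  refine ⟨k⁻¹ * g, fun z hz => ?_, ?_⟩
  · rw [mul_smul, hg z hz, inv_smul_eq_iff, hk z hz]
  · rw [mul_smul, hgx, inv_smul_eq_iff, hky]

theorem IsJ.smul {J : Set Ω} (h : IsJ G J) (g : G) : IsJ G (g • J) := by
  intro x hx y hy
  rw [Set.mem_smul_set_iff_inv_smul_mem] at hx hy
  obtain ⟨k, hk, hkx⟩ := h _ hx _ hy
  refine ⟨g * k * g⁻¹, fun z hz => ?_, ?_⟩
  · rw [mul_smul, mul_smul, hk, smul_inv_smul]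
    intro hz'
    exact hz (by rwa [Set.mem_smul_set_iff_inv_smul_mem])
  · rw [mul_smul, mul_smul, hkx, smul_inv_smul]

end basic

section quasi

variable {G Ω : Type*} [Group G] [MulAction G Ω]

/-- A quasiprimitive group with a Jordan set `Γ`, `1 < |Γ|`, on which the fixing subgroup of the
complement acts primitively, is primitive. -/
theorem isPreprimitive_of_quasiprimitive [FaithfulSMul G Ω]
    (hqp : ∀ N : Subgroup G, N.Normal → N ≠ ⊥ → MulAction.IsPretransitive ↥N Ω)
    (Γ : Set Ω) (hΓ1 : Γ.Nontrivial) 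
    (hJp : MulAction.IsPreprimitive ↥(fixingSubgroup G Γᶜ) ↥(SubMulAction.ofFixingSubgroup G Γᶜ)) :
    IsPreprimitive G Ω := by
  have hJ : IsJ G Γ := isJ_of_isPretransitive hJp.toIsPretransitive
  obtain ⟨a, ha, b, hb, hab⟩ := hΓ1
  obtain ⟨k₀, hk₀, hk₀a⟩ := hJ a ha b hb
  have hk₀1 : k₀ ≠ 1 := by
    rintro rfl
    exact hab (by simpa using hk₀a)
  have hGtop : (⊤ : Subgroup G) ≠ ⊥ := fun h => by
    have : k₀ ∈ (⊥ : Subgroup G) := h ▸ Subgroup.mem_top _
    exact hk₀1 (Subgroup.mem_bot.mp this)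
  have hGt : IsPretransitive G Ω := by
    have := hqp ⊤ inferInstance hGtop
    refine ⟨fun x y => ?_⟩
    obtain ⟨g, hg⟩ := this.exists_smul_eq x y
    exact ⟨g, hg⟩
  refine { isTrivialBlock_of_isBlock := ?_ }
  intro B hB
  by_contra hBt
  have hBn : ¬ B.Subsingleton := fun h => hBt (Or.inl h)
  have hBu : B ≠ Set.univ := fun h => hBt (Or.inr h)
  -- every translate is invariant under every element fixing the complement of Γ
  have hinv : ∀ k : G, (∀ z, z ∉ Γ → k • z = z) → ∀ h : G, k • (h • B) = h • B := by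
    intro k hk h
    have hB' : IsBlock G (h • B) := hB.translate h
    have hB'n : ¬ (h • B).Subsingleton := by
      intro hs
      apply hBn
      intro x hx y hy
      have := hs (Set.smul_mem_smul_set hx (a := h)) (Set.smul_mem_smul_set hy (a := h))
      exact smul_left_cancel h this
    by_cases hsub : h • B ⊆ Γ
    · -- a block inside Γ
      have hblock : IsBlock ↥(fixingSubgroup G Γᶜ)
          ((Subtype.val : ↥(SubMulAction.ofFixingSubgroup G Γᶜ) → Ω) ⁻¹' (h • B)) := by
        have h1 : IsBlock ↥(fixingSubgroup G Γᶜ) (h • B) := hB'.subgroup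
        exact h1.subtype_val_preimage
      rcases hJp.isTrivialBlock_of_isBlock hblock with ht | ht
      · exfalso
        apply hB'n
        intro x hx y hy
        have hx' : x ∈ SubMulAction.ofFixingSubgroup G Γᶜ := by
          rw [SubMulAction.mem_ofFixingSubgroup_iff]; simpa using hsub hx
        have hy' : y ∈ SubMulAction.ofFixingSubgroup G Γᶜ := by
          rw [SubMulAction.mem_ofFixingSubgroup_iff]; simpa using hsub hy
        have := @ht ⟨x, hx'⟩ hx ⟨y, hy'⟩ hy
        exact congrArg Subtype.val this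
      · have heq : h • B = Γ := by
          apply Set.Subset.antisymm hsub
          intro x hx
          have hx' : x ∈ SubMulAction.ofFixingSubgroup G Γᶜ := by
            rw [SubMulAction.mem_ofFixingSubgroup_iff]; simpa using hx
          have : (⟨x, hx'⟩ : ↥(SubMulAction.ofFixingSubgroup G Γᶜ)) ∈
            ((Subtype.val : ↥(SubMulAction.ofFixingSubgroup G Γᶜ) → Ω) ⁻¹' (h • B)) := by
            rw [ht]; trivial
          exact this
        rw [heq]
        ext x
        rw [Set.mem_smul_set_iff_inv_smul_mem]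
        constructor
        · intro hx
          by_contra hxΓ
          have : k⁻¹ • x = x := by rw [inv_smul_eq_iff, hk x hxΓ]
          exact hxΓ (this ▸ hx)
        · intro hx
          by_contra hxΓ
          have h2 := hk _ hxΓ
          rw [smul_inv_smul] at h2
          exact hxΓ (h2 ▸ hx)
    · rw [Set.not_subset] at hsub
      obtain ⟨x, hxB, hxΓ⟩ := hsub
      have hkx := hk x hxΓ
      exact isBlock_iff_smul_eq_of_mem.mp hB' hxB (by rwa [hkx])
  -- the kernel on the translates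
  let N : Subgroup G :=
    { carrier := {k | ∀ h : G, k • (h • B) = h • B}
      one_mem' := fun h => one_smul _ _
      mul_mem' := fun {a b} ha hb h => by rw [mul_smul, hb h, ha h]
      inv_mem' := fun {a} ha h => by rw [inv_smul_eq_iff, ha h] }
  have hNn : N.Normal := by
    refine ⟨fun n hn g h => ?_⟩
    have := hn (g⁻¹ * h)
    rw [mul_smul, mul_smul, ← mul_smul g⁻¹ h, this, ← mul_smul, mul_inv_cancel_left]
  have hN1 : N ≠ ⊥ := fun h => by
    have : k₀ ∈ N := fun h' => hinv k₀ hk₀ h'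
    rw [h] at this
    exact hk₀1 (Subgroup.mem_bot.mp this)
  have hNt := hqp N hNn hN1
  apply hBu
  rw [Set.not_subsingleton_iff] at hBn
  obtain ⟨x, hx, -⟩ := hBn
  apply Set.eq_univ_of_forall
  intro y
  obtain ⟨⟨n, hn⟩, hny⟩ := hNt.exists_smul_eq x y
  have h1 := hn 1
  rw [one_smul] at h1
  rw [← h1, ← hny]
  exact Set.smul_mem_smul_set hx

end quasi

end Cfsg.Agent.H411.JordanSets
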