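import Mathlib

/-!
# Counting in Steiner systems with a subspace

A Steiner system `S(k, f, n)`, `k ≥ 2`, `f > k`, has no proper subspace with more than half of the points
when the complement `m` of the subspace satisfies `2 k - 2 ≤ m`.
-/

set_option autoImplicit false

namespace Cfsg.Agent.H411.SteinerCount

open Finset

variable {α : Type*} [DecidableEq α]

/-- number of `k`-subsets of `V` meeting `Δ` in exactly `j` points -/
theorem card_subsets_inter (V Δ : Finset α) (k j : ℕ) (hj : j ≤ k) :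
    (((V.powersetCard k).filter fun R => (R ∩ Δ).card = j)).card =
      ((V ∩ Δ).card.choose j) * ((V \ Δ).card.choose (k - j)) := by
  rw [← card_powersetCard, ← card_powersetCard, ← card_product]
  refine Finset.card_nbij' (fun R => (R ∩ Δ, R \ Δ)) (fun p => p.1 ∪ p.2) ?_ ?_ ?_ ?_
  · intro R hR
    simp only [coe_filter, mem_powersetCard, Set.mem_ofPred_eq] at hR
    obtain ⟨⟨h1, h2⟩, h3⟩ := hR
    simp only [coe_product, Set.mem_prod, mem_coe, mem_powersetCard]
    refine ⟨⟨inter_subset_inter_right h1, h3⟩, sdiff_subset_sdiff h1 subset_rfl, ?_⟩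
    have := card_sdiff_add_card_inter R Δ
    omega
  · intro p hp
    simp only [coe_product, Set.mem_prod, mem_coe, mem_powersetCard] at hp
    obtain ⟨⟨h1, h2⟩, h3, h4⟩ := hp
    have hd : Disjoint p.1 p.2 := by
      rw [Finset.disjoint_left]
      intro x hx hx'
      have := h1 hx
      have := h3 hx'
      simp_all
    simp only [coe_filter, mem_powersetCard, Set.mem_ofPred_eq]
    refine ⟨⟨union_subset (h1.trans inter_subset_left) (h3.trans sdiff_subset), ?_⟩, ?_⟩
    · rw [card_union_of_disjoint hd]; omega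
    · rw [← h2]
      congr 1
      ext x
      simp only [mem_inter, mem_union]
      constructor
      · rintro ⟨hx | hx, hxΔ⟩
        · exact hx
        · have := h3 hx
          simp_all
      · intro hx
        have := h1 hx
        simp only [mem_inter] at this
        exact ⟨Or.inl hx, this.2⟩
  · intro R hR
    ext x
    simp only [mem_union, mem_inter, mem_sdiff]
    tauto
  · intro p hp
    simp only [coe_product, Set.mem_prod, mem_coe, mem_powersetCard] at hp
    obtain ⟨⟨h1, h2⟩, h3, h4⟩ := hp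
    apply Prod.ext
    · ext x
      simp only [mem_inter, mem_union]
      constructor
      · rintro ⟨hx | hx, hxΔ⟩
        · exact hx
        · have := h3 hx
          simp_all
      · intro hx
        have := h1 hx
        simp only [mem_inter] at this
        exact ⟨Or.inl hx, this.2⟩
    · ext x
      simp only [mem_sdiff, mem_union]
      constructor
      · rintro ⟨hx | hx, hxΔ⟩
        · have := h1 hx
          simp_all
        · exact hx
      · intro hx
        have := h3 hx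
        simp only [mem_sdiff] at this
        exact ⟨Or.inr hx, this.2⟩

/-- The alternating sum identity. -/
theorem alt_sum_identity (k m : ℕ) (hk : Even k) (hk2 : 2 ≤ k) (hm : k - 1 ≤ m) :
    ∑ j ∈ range k, (-1 : ℤ) ^ j * (((m + 1).descFactorial j * m.descFactorial (k - j) : ℕ) : ℤ) =
      - (k * m.descFactorial (k - 1) : ℤ) := by
  obtain ⟨l, rfl⟩ : ∃ l, k = l + 1 := ⟨k - 1, by omega⟩
  have hl : Odd l := by
    rw [Nat.even_add_one] at hk
    exact Nat.not_even_iff_odd.mp hk
  simp only [Nat.add_sub_cancel] at hm ⊢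
  set D : ℕ → ℤ := fun i => ((m.descFactorial i * m.descFactorial (l - i) : ℕ) : ℤ) with hD
  have hzero : ∑ i ∈ range (l + 1), (-1 : ℤ) ^ i * D i = 0 := by
    have h1 := Finset.sum_range_reflect (fun i => (-1 : ℤ) ^ i * D i) (l + 1)
    have h2 : ∑ j ∈ range (l + 1), (-1 : ℤ) ^ (l + 1 - 1 - j) * D (l + 1 - 1 - j) =
        - ∑ i ∈ range (l + 1), (-1 : ℤ) ^ i * D i := by
      rw [← Finset.sum_neg_distrib]
      refine Finset.sum_congr rfl fun i hi => ?_
      rw [Finset.mem_range] at hi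
      have hi' : i ≤ l := by omega
      have hDD : D (l + 1 - 1 - i) = D i := by
        simp only [hD, Nat.add_sub_cancel]
        rw [Nat.sub_sub_self hi', mul_comm]
      have hpow : (-1 : ℤ) ^ (l + 1 - 1 - i) = - (-1) ^ i := by
        rw [Nat.add_sub_cancel]
        have : (-1 : ℤ) ^ (l - i) * (-1) ^ i = -1 := by
          rw [← pow_add, Nat.sub_add_cancel hi', hl.neg_one_pow]
        have h3 : ((-1 : ℤ) ^ i) * (-1) ^ i = 1 := by
          rw [← pow_add]
          exact Even.neg_one_pow ⟨i, rfl⟩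
        calc (-1 : ℤ) ^ (l - i) = (-1 : ℤ) ^ (l - i) * ((-1) ^ i * (-1) ^ i) := by rw [h3, mul_one]
          _ = ((-1 : ℤ) ^ (l - i) * (-1) ^ i) * (-1) ^ i := by ring
          _ = - (-1) ^ i := by rw [this]; ring
      rw [hDD, hpow]
      ring
    rw [h2] at h1
    linarith
  have hDl : D l = (m.descFactorial l : ℤ) := by
    simp [hD]
  rw [Finset.sum_range_succ'] 
  have hS : ∑ i ∈ range l, (-1 : ℤ) ^ (i + 1) *
      (((m + 1).descFactorial (i + 1) * m.descFactorial (l + 1 - (i + 1)) : ℕ) : ℤ) =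
      - ((m : ℤ) + 1) * ∑ i ∈ range l, (-1 : ℤ) ^ i * D i := by
    rw [Finset.mul_sum]
    refine Finset.sum_congr rfl fun i hi => ?_
    have : l + 1 - (i + 1) = l - i := by omega
    rw [this, Nat.succ_descFactorial_succ]
    simp only [hD]
    push_cast
    ring
  rw [hS]
  have h4 : ∑ i ∈ range l, (-1 : ℤ) ^ i * D i = D l := by
    rw [Finset.sum_range_succ, hl.neg_one_pow] at hzero
    linarith
  rw [h4, hDl]
  have h5 : ((m.descFactorial (l + 1) : ℕ) : ℤ) = (m - l) * m.descFactorial l := by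
    rw [Nat.descFactorial_succ]
    push_cast [Nat.cast_sub hm]
    ring
  simp only [pow_zero, one_mul, Nat.descFactorial_zero, Nat.sub_zero]
  rw [h5]
  push_cast
  ring

/-- Double counting the `k`-subsets in a Steiner system `S(k, k+1, |V|)`. -/
theorem steiner_recursion (V Δ : Finset α) (k : ℕ)
    (𝓟 : Finset (Finset α)) (h𝓟 : ∀ P ∈ 𝓟, P ⊆ V ∧ P.card = k + 1)
    (hex : ∀ R ⊆ V, R.card = k → ∃ P ∈ 𝓟, R ⊆ P)
    (huniq : ∀ R ⊆ V, R.card = k → ∀ P ∈ 𝓟, ∀ P' ∈ 𝓟, R ⊆ P → R ⊆ P' → P = P')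
    (j : ℕ) (hj : j ≤ k) :
    ((V ∩ Δ).card.choose j) * ((V \ Δ).card.choose (k - j)) =
      (k + 1 - j) * (𝓟.filter fun P => (P ∩ Δ).card = j).card +
      (j + 1) * (𝓟.filter fun P => (P ∩ Δ).card = j + 1).card := by
  rw [← card_subsets_inter V Δ k j hj]
  have h1 : (V.powersetCard k).filter (fun R => (R ∩ Δ).card = j) =
      𝓟.biUnion fun P => (P.powersetCard k).filter (fun R => (R ∩ Δ).card = j) := by
    ext R
    simp only [mem_filter, mem_powersetCard, mem_biUnion]
    constructor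
    · rintro ⟨⟨h1, h2⟩, h3⟩
      obtain ⟨P, hP, hRP⟩ := hex R h1 h2
      exact ⟨P, hP, ⟨hRP, h2⟩, h3⟩
    · rintro ⟨P, hP, ⟨h1, h2⟩, h3⟩
      exact ⟨⟨h1.trans (h𝓟 P hP).1, h2⟩, h3⟩
  rw [h1, card_biUnion]
  · have h2 : ∀ P ∈ 𝓟, (((P.powersetCard k).filter fun R => (R ∩ Δ).card = j)).card =
        (if (P ∩ Δ).card = j then (k + 1 - j) else 0) +
        (if (P ∩ Δ).card = j + 1 then (j + 1) else 0) := by
      intro P hP
      rw [card_subsets_inter P Δ k j hj]
      have hc := card_sdiff_add_card_inter P Δ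
      rw [(h𝓟 P hP).2] at hc
      by_cases hi : (P ∩ Δ).card = j
      · have hd : (P \ Δ).card = (k - j) + 1 := by omega
        rw [hi, hd, if_pos rfl, if_neg (by omega), Nat.choose_self, Nat.choose_succ_self_right]
        omega
      · by_cases hi' : (P ∩ Δ).card = j + 1
        · have hd : (P \ Δ).card = k - j := by omega
          rw [hi', hd, if_neg (by omega), if_pos rfl, Nat.choose_self, Nat.choose_succ_self_right]
          omega
        · rw [if_neg hi, if_neg hi']
          rcases Nat.lt_or_gt_of_ne hi with h | h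
          · rw [Nat.choose_eq_zero_of_lt h]; simp
          · have : (P \ Δ).card < k - j := by omega
            rw [Nat.choose_eq_zero_of_lt this]; simp
    rw [Finset.sum_congr rfl h2, Finset.sum_add_distrib, Finset.sum_ite, Finset.sum_ite]
    simp only [sum_const, smul_eq_mul, mul_zero, add_zero]
    ring
  · intro P hP P' hP' hne
    change Disjoint _ _
    rw [Finset.disjoint_left]
    intro R hR hR'
    simp only [mem_filter, mem_powersetCard] at hR hR'
    exact hne (huniq R (hR.1.1.trans (h𝓟 P hP).1) hR.1.2 P hP P' hP' hR.1.1 hR'.1.1)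

/-- A Steiner system `S(k, k+1, 2m+1)`, `k` even, has no subspace with `m + 1` points. -/
theorem steiner_contra (V Δ : Finset α) (k m : ℕ) (hk : Even k) (hk2 : 2 ≤ k)
    (hΔc : (V ∩ Δ).card = m + 1) (hΓc : (V \ Δ).card = m) (hm : k - 1 ≤ m)
    (𝓟 : Finset (Finset α)) (h𝓟 : ∀ P ∈ 𝓟, P ⊆ V ∧ P.card = k + 1)
    (hex : ∀ R ⊆ V, R.card = k → ∃ P ∈ 𝓟, R ⊆ P)
    (huniq : ∀ R ⊆ V, R.card = k → ∀ P ∈ 𝓟, ∀ P' ∈ 𝓟, R ⊆ P → R ⊆ P' → P = P')
    (hsub : ∀ P ∈ 𝓟, (P ∩ Δ).card ≠ k) : False := by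
  set T : ℕ → ℕ := fun j => j.factorial * (k + 1 - j).factorial *
    (𝓟.filter fun P => (P ∩ Δ).card = j).card with hT
  have hTk : T k = 0 := by
    have : (𝓟.filter fun P => (P ∩ Δ).card = k) = ∅ := by
      rw [Finset.filter_eq_empty_iff]
      exact fun P hP => hsub P hP
    simp [hT, this]
  have hrec : ∀ j, j ≤ k → (m + 1).descFactorial j * m.descFactorial (k - j) = T j + T (j + 1) := by
    intro j hj
    have h1 := steiner_recursion V Δ k 𝓟 h𝓟 hex huniq j hj
    rw [hΔc, hΓc] at h1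
    rw [Nat.descFactorial_eq_factorial_mul_choose, Nat.descFactorial_eq_factorial_mul_choose]
    have h2 : j.factorial * (m + 1).choose j * ((k - j).factorial * m.choose (k - j)) =
        j.factorial * (k - j).factorial * ((m + 1).choose j * m.choose (k - j)) := by ring
    rw [h2, h1]
    simp only [hT]
    have h3 : (k + 1 - j).factorial = (k + 1 - j) * (k - j).factorial := by
      have : k + 1 - j = (k - j) + 1 := by omega
      rw [this, Nat.factorial_succ]
    have h4 : k + 1 - (j + 1) = k - j := by omega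
    rw [h3, h4, Nat.factorial_succ]
    ring
  have hsum : ∀ l, l ≤ k → ∑ j ∈ range l, (-1 : ℤ) ^ j *
      (((m + 1).descFactorial j * m.descFactorial (k - j) : ℕ) : ℤ) = T 0 - (-1) ^ l * T l := by
    intro l
    induction l with
    | zero => intro _; simp
    | succ l ih =>
      intro hl
      rw [Finset.sum_range_succ, ih (by omega), hrec l (by omega)]
      push_cast
      ring
  have h5 := hsum k le_rfl
  rw [alt_sum_identity k m hk hk2 hm, hTk] at h5
  have h6 : 0 < m.descFactorial (k - 1) := Nat.descFactorial_pos.mpr hm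
  have h7 : (0 : ℤ) < k * m.descFactorial (k - 1) := by positivity
  have h8 : (0 : ℤ) ≤ T 0 := by positivity
  simp only [Nat.cast_zero, mul_zero, sub_zero] at h5
  linarith

/-- The blocks through `k - 1` points `R₀ ∪ {δ, γ}`. -/
theorem steiner_lines (Δ : Finset α) (k f : ℕ) [Fintype α] (hk2 : 2 ≤ k) (hf : k + 1 ≤ f)
    (𝓟 : Finset (Finset α)) (h𝓟 : ∀ P ∈ 𝓟, P.card = f)
    (hex : ∀ R : Finset α, R.card = k → ∃ P ∈ 𝓟, R ⊆ P)
    (huniq : ∀ R : Finset α, R.card = k → ∀ P ∈ 𝓟, ∀ P' ∈ 𝓟, R ⊆ P → R ⊆ P' → P = P')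
    (hsub : ∀ P ∈ 𝓟, k ≤ (P ∩ Δ).card → P ⊆ Δ) (R₀ : Finset α) (hR₀ : R₀ ⊆ Δ)
    (hR₀c : R₀.card = k - 2) (γ : α) (hγ : γ ∉ Δ) :
    (Δ.card - (k - 2)) * (f - k) ≤ (Δᶜ).card - 1 := by
  classical
  have hR : ∀ δ ∈ Δ \ R₀, (insert γ (insert δ R₀)).card = k := by
    intro δ hδ
    rw [mem_sdiff] at hδ
    rw [card_insert_of_notMem, card_insert_of_notMem hδ.2, hR₀c]
    · omega
    · rw [mem_insert]
      rintro (h | h)
      · exact hγ (h ▸ hδ.1)
      · exact hγ (hR₀ h)
  choose! L hL hRL using fun δ (hδ : δ ∈ Δ \ R₀) => hex _ (hR δ hδ)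
  have hLΔ : ∀ δ ∈ Δ \ R₀, L δ ∩ Δ = insert δ R₀ := by
    intro δ hδ
    have hδ' := mem_sdiff.mp hδ
    symm
    apply eq_of_subset_of_card_le
    · intro x hx
      rw [mem_inter]
      refine ⟨hRL δ hδ (mem_insert_of_mem hx), ?_⟩
      rcases mem_insert.mp hx with rfl | hx
      · exact hδ'.1
      · exact hR₀ hx
    · rw [card_insert_of_notMem hδ'.2, hR₀c]
      by_contra hlt
      push Not at hlt
      have := hsub _ (hL δ hδ) (by omega)
      exact hγ (this (hRL δ hδ (mem_insert_self _ _)))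
  have hcard : ∀ δ ∈ Δ \ R₀, (L δ \ insert γ (insert δ R₀)).card = f - k := by
    intro δ hδ
    rw [card_sdiff_of_subset (hRL δ hδ), hR δ hδ, h𝓟 _ (hL δ hδ)]
  have hU : ((Δ \ R₀).biUnion fun δ => L δ \ insert γ (insert δ R₀)) ⊆ (Δᶜ).erase γ := by
    intro x hx
    rw [mem_biUnion] at hx
    obtain ⟨δ, hδ, hx⟩ := hx
    rw [mem_sdiff, mem_insert, not_or] at hx
    rw [mem_erase, mem_compl]
    refine ⟨hx.2.1, fun hxΔ => hx.2.2 ?_⟩
    rw [← hLΔ δ hδ]
    exact mem_inter.mpr ⟨hx.1, hxΔ⟩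
  have h1 := card_le_card hU
  rw [card_biUnion, Finset.sum_congr rfl hcard, sum_const, smul_eq_mul,
    card_sdiff_of_subset hR₀, hR₀c, card_erase_of_mem (by simpa using hγ)] at h1
  · exact h1
  · intro δ hδ δ' hδ' hne
    change Disjoint _ _
    rw [Finset.disjoint_left]
    intro y hy hy'
    rw [mem_sdiff] at hy hy'
    have hδm := mem_sdiff.mp hδ
    have hδm' := mem_sdiff.mp hδ'
    have hyγ : y ≠ γ := fun h => hy.2 (h ▸ mem_insert_self _ _)
    have hyR₀ : y ∉ R₀ := fun h => hy.2 (mem_insert_of_mem (mem_insert_of_mem h))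
    have hc : (insert γ (insert y R₀)).card = k := by
      rw [card_insert_of_notMem, card_insert_of_notMem hyR₀, hR₀c]
      · omega
      · rw [mem_insert, not_or]
        exact ⟨hyγ.symm, fun h => hγ (hR₀ h)⟩
    have hs : ∀ ε ∈ Δ \ R₀, y ∈ L ε → insert γ (insert y R₀) ⊆ L ε := by
      intro ε hε hyε z hz
      rcases mem_insert.mp hz with rfl | hz
      · exact hRL ε hε (mem_insert_self _ _)
      · rcases mem_insert.mp hz with rfl | hz
        · exact hyε
        · exact hRL ε hε (mem_insert_of_mem (mem_insert_of_mem hz))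
    have heq : L δ = L δ' := huniq _ hc _ (hL δ hδ) _ (hL δ' hδ') (hs δ hδ hy.1) (hs δ' hδ' hy'.1)
    have h3 : δ' ∈ L δ ∩ Δ := by
      rw [mem_inter, heq]
      exact ⟨hRL δ' hδ' (mem_insert_of_mem (mem_insert_self _ _)), hδm'.1⟩
    rw [hLΔ δ hδ, mem_insert] at h3
    rcases h3 with h3 | h3
    · exact hne h3.symm
    · exact hδm'.2 h3

/-- In an `S(k, k+1, n)` the number `n - k + 1` is even. -/
theorem steiner_parity [Fintype α] (k : ℕ) (hk1 : 1 ≤ k) (hn : k - 1 ≤ Fintype.card α)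
    (𝓟 : Finset (Finset α)) (h𝓟 : ∀ P ∈ 𝓟, P.card = k + 1)
    (hex : ∀ R : Finset α, R.card = k → ∃ P ∈ 𝓟, R ⊆ P)
    (huniq : ∀ R : Finset α, R.card = k → ∀ P ∈ 𝓟, ∀ P' ∈ 𝓟, R ⊆ P → R ⊆ P' → P = P') :
    Even (Fintype.card α - (k - 1)) := by
  classical
  obtain ⟨Q, hQu, hQ⟩ := exists_subset_card_eq (s := (univ : Finset α)) (n := k - 1)
    (by rwa [card_univ])
  have h1 : (univ \ Q : Finset α) = (𝓟.filter fun P => Q ⊆ P).biUnion fun P => P \ Q := by
    ext x
    simp only [mem_sdiff, mem_univ, true_and, mem_biUnion, mem_filter]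
    constructor
    · intro hx
      obtain ⟨P, hP, hRP⟩ := hex (insert x Q) (by rw [card_insert_of_notMem hx, hQ]; omega)
      exact ⟨P, ⟨hP, (subset_insert _ _).trans hRP⟩, hRP (mem_insert_self _ _), hx⟩
    · rintro ⟨P, -, -, hx⟩
      exact hx
  have h2 : (univ \ Q : Finset α).card = Fintype.card α - (k - 1) := by
    rw [card_sdiff_of_subset hQu, hQ, card_univ]
  rw [← h2, h1, card_biUnion]
  · have h3 : ∀ P ∈ 𝓟.filter (fun P => Q ⊆ P), (P \ Q).card = 2 := by
      intro P hP
      rw [mem_filter] at hP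
      rw [card_sdiff_of_subset hP.2, hQ, h𝓟 P hP.1]
      omega
    rw [Finset.sum_congr rfl h3, sum_const, smul_eq_mul]
    exact even_two.mul_left _
  · intro P hP P' hP' hne
    change Disjoint _ _
    rw [coe_filter] at hP hP'
    rw [Finset.disjoint_left]
    intro x hx hx'
    rw [mem_sdiff] at hx hx'
    apply hne
    refine huniq (insert x Q) (by rw [card_insert_of_notMem hx.2, hQ]; omega) P hP.1 P' hP'.1 ?_ ?_
    · exact insert_subset hx.1 hP.2
    · exact insert_subset hx'.1 hP'.2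

/-- A Steiner system `S(k, f, n)`, `2 ≤ k < f`, has no subspace `Δ` with more than half of the points if
the number `m` of points outside satisfies `2 k - 2 ≤ m`. -/
theorem steiner_main [Fintype α] (Δ : Finset α) (k f : ℕ) (hk2 : 2 ≤ k) (hf : k + 1 ≤ f)
    (𝓟 : Finset (Finset α)) (h𝓟 : ∀ P ∈ 𝓟, P.card = f)
    (hex : ∀ R : Finset α, R.card = k → ∃ P ∈ 𝓟, R ⊆ P)
    (huniq : ∀ R : Finset α, R.card = k → ∀ P ∈ 𝓟, ∀ P' ∈ 𝓟, R ⊆ P → R ⊆ P' → P = P')
    (hsub : ∀ P ∈ 𝓟, k ≤ (P ∩ Δ).card → P ⊆ Δ)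
    (hm : 2 * k - 2 ≤ (Δᶜ).card) (ha : (Δᶜ).card + 1 ≤ Δ.card) : False := by
  classical
  have hγ : (Δᶜ).Nonempty := by
    rw [← card_pos]; omega
  obtain ⟨γ, hγ⟩ := hγ
  obtain ⟨R₀, hR₀, hR₀c⟩ := exists_subset_card_eq (s := Δ) (n := k - 2) (by omega)
  have h1 := steiner_lines Δ k f hk2 hf 𝓟 h𝓟 hex huniq hsub R₀ hR₀ hR₀c γ (by simpa using hγ)
  have hnc : Δ.card + (Δᶜ).card = Fintype.card α := card_add_card_compl Δ
  rcases Nat.lt_or_ge (k + 1) f with hf2 | hf2
  · have h2 : (Δ.card - (k - 2)) * 2 ≤ (Δ.card - (k - 2)) * (f - k) :=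
      Nat.mul_le_mul_left _ (by omega)
    omega
  · have hfk : f = k + 1 := by omega
    subst hfk
    have h2 : k + 1 - k = 1 := by omega
    rw [h2, mul_one] at h1
    have hpar := steiner_parity k (by omega) (by omega) 𝓟 h𝓟 hex huniq
    set m := (Δᶜ).card with hmdef
    obtain ⟨r, hr⟩ : ∃ r, Δ.card = m + 1 + r := ⟨Δ.card - (m + 1), by omega⟩
    obtain ⟨R₁, hR₁, hR₁c⟩ := exists_subset_card_eq (s := Δ) (n := r) (by omega)
    have hrk : r + 4 ≤ k := by omega
    refine steiner_contra (univ \ R₁) Δ (k - r) m ?_ (by omega) ?_ ?_ (by omega)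
      ((𝓟.filter fun P => R₁ ⊆ P).image fun P => P \ R₁) ?_ ?_ ?_ ?_
    · rw [← hnc, hr] at hpar
      have : m + 1 + r + m - (k - 1) = 2 * m + 2 + r - k := by omega
      rw [this] at hpar
      rw [Nat.even_iff] at hpar ⊢
      omega
    · have : (univ \ R₁) ∩ Δ = Δ \ R₁ := by
        ext x; simp only [mem_inter, mem_sdiff, mem_univ, true_and]; tauto
      rw [this, card_sdiff_of_subset hR₁]
      omega
    · have : (univ \ R₁) \ Δ = Δᶜ := by
        ext x
        simp only [mem_sdiff, mem_univ, true_and, mem_compl]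
        constructor
        · exact fun h => h.2
        · exact fun h => ⟨fun h' => h (hR₁ h'), h⟩
      rw [this]
    · intro P hP
      rw [mem_image] at hP
      obtain ⟨P₀, hP₀, rfl⟩ := hP
      rw [mem_filter] at hP₀
      refine ⟨sdiff_subset_sdiff (subset_univ _) subset_rfl, ?_⟩
      rw [card_sdiff_of_subset hP₀.2, h𝓟 _ hP₀.1]
      omega
    · intro R hR hRc
      have hd : Disjoint R R₁ := by
        rw [Finset.disjoint_left]
        intro x hx hx'
        have := hR hx
        simp_all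
      obtain ⟨P, hP, hRP⟩ := hex (R ∪ R₁) (by rw [card_union_of_disjoint hd]; omega)
      refine ⟨P \ R₁, mem_image.mpr ⟨P, mem_filter.mpr ⟨hP, subset_union_right.trans hRP⟩, rfl⟩, ?_⟩
      intro x hx
      rw [mem_sdiff]
      exact ⟨hRP (mem_union_left _ hx), fun h => Finset.disjoint_left.mp hd hx h⟩
    · intro R hR hRc P hP P' hP' hRP hRP'
      have hd : Disjoint R R₁ := by
        rw [Finset.disjoint_left]
        intro x hx hx'
        have := hR hx
        simp_all
      rw [mem_image] at hP hP'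
      obtain ⟨P₀, hP₀, rfl⟩ := hP
      obtain ⟨P₁, hP₁, rfl⟩ := hP'
      rw [mem_filter] at hP₀ hP₁
      have : P₀ = P₁ := by
        refine huniq (R ∪ R₁) (by rw [card_union_of_disjoint hd]; omega) P₀ hP₀.1 P₁ hP₁.1 ?_ ?_
        · exact union_subset (hRP.trans sdiff_subset) hP₀.2
        · exact union_subset (hRP'.trans sdiff_subset) hP₁.2
      rw [this]
    · intro P hP hPc
      rw [mem_image] at hP
      obtain ⟨P₀, hP₀, rfl⟩ := hP
      rw [mem_filter] at hP₀
      have h5 : (P₀ ∩ Δ).card = k := by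
        have h6 : (P₀ \ R₁) ∩ Δ = (P₀ ∩ Δ) \ R₁ := by
          ext x; simp only [mem_inter, mem_sdiff]; tauto
        have h7 : R₁ ⊆ P₀ ∩ Δ := subset_inter hP₀.2 hR₁
        rw [h6, card_sdiff_of_subset h7] at hPc
        have := card_le_card h7
        omega
      have h6 := hsub P₀ hP₀.1 h5.ge
      rw [inter_eq_left.mpr h6, h𝓟 _ hP₀.1] at h5
      omega

end Cfsg.Agent.H411.SteinerCount
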